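import Cfsg.Agent.FpfSym3.Solvable
import Cfsg.Agent.OffThm.Functors

/-!
When the proper invariant subgroups are solvable, the normalizer of an invariant Sylow 2-subgroup
of a simple group controls fusion in it.
-/

set_option autoImplicit false
set_option linter.unusedSectionVars false
set_option linter.style.haveILetI false
set_option maxHeartbeats 1000000

namespace Cfsg.Agent.FpfSym3

open Cfsg.Agent.Fusion (cj mem_cj)

universe u

namespace Pair

variable {G : Type u} [Group G] [Finite G]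

theorem mem_normalizer_of_forall {W : Subgroup G} {x : G} (h : ∀ w ∈ W, x * w * x⁻¹ ∈ W) :
    x ∈ Subgroup.normalizer (W : Set G) := by
  have hmap := map_eq_of_mem (f := MulAut.conj x) h
  refine Subgroup.mem_normalizer_iff.2 fun w => ⟨h w, fun hw => ?_⟩
  rw [← hmap] at hw
  obtain ⟨v, hv, hvw⟩ := hw
  exact (MulAut.conj x).injective (hvw : MulAut.conj x v = MulAut.conj x w) ▸ hv

theorem normalizer_mem {W : Subgroup G} (f : MulAut G) (hW : ∀ w ∈ W, f w ∈ W) :
    ∀ x ∈ Subgroup.normalizer (W : Set G), f x ∈ Subgroup.normalizer (W : Set G) := by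
  intro x hx
  refine mem_normalizer_of_forall ?_
  intro w hw
  have hmap := map_eq_of_mem hW
  rw [← hmap] at hw
  obtain ⟨v, hv, rfl⟩ := hw
  have : x * v * x⁻¹ ∈ W := (Subgroup.mem_normalizer_iff.1 hx v).1 hv
  have := hW _ this
  simpa only [map_mul, map_inv, MonoidHom.coe_coe] using this

/-- An element of an invariant solvable subgroup containing `S` induces on subsets of `S` the same
map as an element normalizing `S`. -/
theorem step (P : Pair G) (h3 : ¬ 3 ∣ Nat.card G) (S : Sylow 2 G) (M : Subgroup G)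
    (hS : (S : Subgroup G) ≤ M) (hs : ∀ x ∈ M, P.s x ∈ M) (ht : ∀ x ∈ M, P.t x ∈ M)
    (hsol : Group.IsSolvable M) {x : G} (hx : x ∈ M) :
    ∃ n ∈ Subgroup.normalizer ((S : Subgroup G) : Set G), ∀ d ∈ (S : Subgroup G),
      x * d * x⁻¹ ∈ (S : Subgroup G) → n * d * n⁻¹ = x * d * x⁻¹ := by
  haveI : Fact (Nat.Prime 2) := ⟨Nat.prime_two⟩
  set Q := P.restrict M hs ht with hQ
  haveI := hsol
  have hstr := Q.structure_of_solvable (fun h => h3 (h.trans M.card_subgroup_dvd_card))
  set O := Cfsg.pPrimeCore 2 M with hO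
  set K := Cfsg.pPrimePCore 2 M with hK
  haveI : K.Normal := by rw [hK]; exact Subgroup.normal_comap _
  let SM : Sylow 2 M := S.subtype hS
  have hSK : (SM : Subgroup M) ≤ K := by
    intro y hy
    have hy' : y ∈ K ⊔ Q.cen := by rw [hstr]; trivial
    obtain ⟨k, hk, c, hc, rfl⟩ := Subgroup.mem_sup_of_normal_left.1 hy'
    obtain ⟨j, hj⟩ := SM.2 ⟨k * c, hy⟩
    have hj' : (k * c) ^ 2 ^ j = 1 := by simpa using congrArg Subtype.val hj
    set π := QuotientGroup.mk' K
    have hπ : π (k * c) = π c := by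
      rw [map_mul, show π k = 1 from (QuotientGroup.eq_one_iff k).2 hk, one_mul]
    have h1 : orderOf (π c) = 1 := Nat.eq_one_of_dvd_coprimes
      ((Nat.coprime_two_left.2 Q.cen_odd).pow_left j)
      (orderOf_dvd_of_pow_eq_one (by rw [← hπ, ← map_pow, hj', map_one]))
      ((orderOf_map_dvd π c).trans
        ((Subgroup.orderOf_coe ⟨c, hc⟩).symm ▸ orderOf_dvd_natCard _))
    exact (QuotientGroup.eq_one_iff _).1 (hπ.trans (orderOf_eq_one_iff.1 h1))
  have hKle : K ≤ (SM : Subgroup M) ⊔ O := by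
    intro k hk
    obtain ⟨y, hy, he⟩ := (Cores.pCore_le_sylow
      (SM.mapSurjective (QuotientGroup.mk'_surjective O))) hk
    have : y⁻¹ * k ∈ O := QuotientGroup.eq.1 he
    have := Subgroup.mul_mem_sup hy this
    rwa [mul_inv_cancel_left] at this
  have hfr := Sylow.normalizer_sup_eq_top (SM.subtype hSK)
  rw [Sylow.coe_subtype, Subgroup.map_subgroupOf_eq_of_le hSK] at hfr
  have hxm : (⟨x, hx⟩ : M) ∈ Subgroup.normalizer ((SM : Subgroup M) : Set M) ⊔ O := by
    have : Subgroup.normalizer ((SM : Subgroup M) : Set M) ⊔ O = ⊤ := by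
      rw [eq_top_iff, ← hfr]
      exact sup_le le_sup_left (hKle.trans (sup_le_sup_right Subgroup.le_normalizer _))
    rw [this]; trivial
  obtain ⟨n, hn, o, ho, hno⟩ := Subgroup.mem_sup_of_normal_right.1 hxm
  have hn' : (n : G) ∈ Subgroup.normalizer ((S : Subgroup G) : Set G) := by
    refine mem_normalizer_of_forall ?_
    intro y hy
    exact (Subgroup.mem_normalizer_iff.1 hn ⟨y, hS hy⟩).1 hy
  refine ⟨n, hn', fun d hd hxd => ?_⟩
  set dm : M := ⟨d, hS hd⟩
  have hxeq : x = (n : G) * o := congrArg Subtype.val hno.symm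
  have hod : o * dm * o⁻¹ ∈ (SM : Subgroup M) := by
    show ((o : G) * d * (o : G)⁻¹) ∈ (S : Subgroup G)
    refine (Subgroup.mem_normalizer_iff.1 hn' _).2 ?_
    rwa [show (n : G) * ((o : G) * d * (o : G)⁻¹) * (n : G)⁻¹ = x * d * x⁻¹ by rw [hxeq]; group]
  have hdm : dm ∈ (SM : Subgroup M) := hd
  have h1 : dm⁻¹ * (o * dm * o⁻¹) ∈ (SM : Subgroup M) ⊓ O := by
    refine Subgroup.mem_inf.2 ⟨mul_mem (inv_mem hdm) hod, ?_⟩
    show dm⁻¹ * (o * dm * o⁻¹) ∈ O
    rw [show dm⁻¹ * (o * dm * o⁻¹) = (dm⁻¹ * o * dm) * o⁻¹ by group]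
    refine mul_mem ?_ (inv_mem ho)
    simpa using (Cores.pPrimeCore_normal_inst (p := 2) M).conj_mem o ho dm⁻¹
  have hbot : (SM : Subgroup M) ⊓ O = ⊥ := by
    refine Subgroup.inf_eq_bot_of_coprime ?_
    obtain ⟨j, hj⟩ := SM.2.exists_card_eq
    rw [hj]
    exact (Cores.pPrimeCore_coprime (p := 2) (G := M)).symm.pow_left j
  rw [hbot, Subgroup.mem_bot, inv_mul_eq_one] at h1
  have h2 : d = (o : G) * d * (o : G)⁻¹ := congrArg Subtype.val h1
  rw [hxeq]
  conv_lhs => rw [h2]
  group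

/-- Fusion in `S` takes place in the normalizer of `S`. -/
theorem controls (P : Pair G) (h3 : ¬ 3 ∣ Nat.card G)
    (IH : ∀ H : Subgroup G, H ≠ ⊤ → (∀ x ∈ H, P.s x ∈ H) → (∀ x ∈ H, P.t x ∈ H) →
      Group.IsSolvable H)
    (hsimple : ∀ N : Subgroup G, N.Normal → N = ⊥ ∨ N = ⊤)
    (hns : ¬ Group.IsSolvable G)
    (S : Sylow 2 G) (hSne : (S : Subgroup G) ≠ ⊥) (hSs : ∀ x ∈ S, P.s x ∈ S)
    (hSt : ∀ x ∈ S, P.t x ∈ S) :
    ∀ D : Subgroup G, D ≤ S → ∀ g : G, cj g D ≤ S →
      ∃ n ∈ Subgroup.normalizer ((S : Subgroup G) : Set G), ∀ d ∈ D,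
        n * d * n⁻¹ = g * d * g⁻¹ := by
  haveI : Fact (Nat.Prime 2) := ⟨Nat.prime_two⟩
  have hS4 : ¬ Cfsg.Involves (Equiv.Perm (Fin 4)) G := by
    rintro ⟨K, R, hR, ⟨e⟩⟩
    refine h3 (Dvd.dvd.trans ?_ ((Subgroup.card_quotient_dvd_card (R.subgroupOf K)).trans K.card_subgroup_dvd_card))
    rw [Nat.card_congr e.toEquiv, Nat.card_perm, Nat.card_eq_fintype_card, Fintype.card_fin]
    decide
  have hfus := OffThm.fusIn_pair hS4 G (CF.IsSec.refl G) S
  intro D hD g hg
  have hreach := hfus D hD g trivial hg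
  clear hg hD
  induction hreach with
  | @agree D g h1 h2 => exact ⟨1, one_mem _, fun d hd => by rw [h2 d hd]; group⟩
  | @step D x g g' hx hD hr h4 ih =>
    obtain ⟨W, hW, -, hxW⟩ := hx
    obtain ⟨F, hF, rfl⟩ := hW
    set Z := Cfsg.inducedFunctor F (S : Subgroup G) with hZ
    have hchar := OffThm.pair_charP F hF
    have hinv : ∀ (f : MulAut G), (∀ y ∈ S, f y ∈ S) → ∀ z ∈ Z, f z ∈ Z := by
      intro f hf z hz
      let e : (S : Subgroup G) ≃* (S : Subgroup G) :=
        MulEquiv.ofBijective ((f.toMonoidHom.comp (S : Subgroup G).subtype).codRestrict _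
          (fun y => hf y y.2)) (Finite.injective_iff_bijective.1 fun a b h =>
            Subtype.ext (f.injective (congrArg Subtype.val h)))
      obtain ⟨y, hy, rfl⟩ := hz
      refine ⟨e y, ?_, rfl⟩
      rw [SetLike.mem_coe, ← hchar.2 _ _ S.2 e]
      exact ⟨y, hy, rfl⟩
    have hZS : Z ≤ S := Subgroup.map_subtype_le _
    have hZne : Z ≠ ⊥ := by
      haveI : Nontrivial (S : Subgroup G) := (Subgroup.nontrivial_iff_ne_bot _).2 hSne
      intro h
      exact hchar.1 _ S.2 inferInstance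
        ((Subgroup.map_eq_bot_iff_of_injective _ (S : Subgroup G).subtype_injective).1 h)
    set M := Subgroup.normalizer (Z : Set G) with hM
    have hMtop : M ≠ ⊤ := by
      intro h
      rcases hsimple Z (Subgroup.normalizer_eq_top_iff.1 h) with h' | h'
      · exact hZne h'
      · refine hns ?_
        rw [h', top_le_iff] at hZS
        haveI : Group.IsNilpotent G := by
          have hp := S.2
          rw [hZS] at hp
          exact (hp.of_equiv Subgroup.topEquiv).isNilpotent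
        infer_instance
    have hSM : (S : Subgroup G) ≤ M := by
      intro y hy
      refine mem_normalizer_of_forall ?_
      intro z hz
      exact hinv (MulAut.conj y) (fun w hw => mul_mem (mul_mem hy hw) (inv_mem hy)) z hz
    obtain ⟨n₀, hn₀, hstep⟩ := P.step h3 S M hSM (normalizer_mem P.s (hinv _ hSs))
      (normalizer_mem P.t (hinv _ hSt))
      (IH M hMtop (normalizer_mem P.s (hinv _ hSs)) (normalizer_mem P.t (hinv _ hSt))) hxW
    obtain ⟨n, hn, hnd⟩ := ih
    refine ⟨n * n₀, mul_mem hn hn₀, fun d hd => ?_⟩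
    have hxd : x * d * x⁻¹ ∈ cj x D := ⟨d, hd, rfl⟩
    rw [← h4 d hd, show n * n₀ * d * (n * n₀)⁻¹ = n * (n₀ * d * n₀⁻¹) * n⁻¹ by group,
      hstep d (hD hd) (hr.le hxd), hnd _ hxd]
    group

end Pair

end Cfsg.Agent.FpfSym3
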