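import Cfsg.Agent.FpfSym3.Ring
import Mathlib.Algebra.Module.Basic
import Mathlib.Algebra.Group.Equiv.TypeTags
import Mathlib.GroupTheory.Commutator.Basic
import Mathlib.Tactic.Group

/-!
A group of order prime to `6`, with an automorphism `σ`, acting faithfully and compatibly on an
elementary abelian 2-group on which `σ` is fixed-point-free of order three, is centralized by `σ`.
-/

set_option autoImplicit false
set_option linter.style.haveILetI false

namespace Cfsg.Agent.FpfSym3

variable {V : Type*} [CommGroup V]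

/-- An automorphism of an abelian group as an endomorphism of the additive group. -/
def toEnd : MulAut V →* AddMonoid.End (Additive V) where
  toFun f := MonoidHom.toAdditive f.toMonoidHom
  map_one' := rfl
  map_mul' _ _ := rfl

theorem toEnd_apply (f : MulAut V) (v : Additive V) : toEnd f v = Additive.ofMul (f v.toMul) := rfl

theorem toEnd_injective : Function.Injective (toEnd (V := V)) := fun f g h =>
  MulEquiv.ext fun v => Additive.ofMul.injective (DFunLike.congr_fun h (Additive.ofMul v))

theorem toEnd_quad (f : MulAut V) (h : ∀ v, f (f v) * f v * v = 1) :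
    toEnd f * toEnd f + toEnd f + 1 = 0 :=
  AddMonoidHom.ext fun v => congrArg Additive.ofMul (h v.toMul)

theorem end_two (hV : ∀ v : V, v * v = 1) : (1 : AddMonoid.End (Additive V)) + 1 = 0 :=
  AddMonoidHom.ext fun v => congrArg Additive.ofMul (hV v.toMul)

/-- Two commuting units with the three trace identities. -/
theorem eq_one_of_cycle' {E : Type*} [Ring E] (h2 : (1 : E) + 1 = 0) (a x : Eˣ) (hax : Commute a x)
    {n : ℕ} (ha : a ^ n = 1) (hn2 : Odd n) (hn3 : Nat.Coprime n 3)
    (h1 : (x : E) + x⁻¹.1 = a + a⁻¹.1)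
    (h3 : ((a * x)⁻¹ : Eˣ).1 + (a * x : Eˣ).1 = a + a⁻¹.1) : a = 1 := by
  set s : Set E := {(a : E), a⁻¹.1, (x : E), x⁻¹.1}
  have hcomm : ∀ u ∈ s, ∀ v ∈ s, u * v = v * u := by
    have e1 : Commute (a : E) x := hax.units_val
    have e2 : Commute (a : E) x⁻¹.1 := hax.inv_right.units_val
    have e3 : Commute a⁻¹.1 (x : E) := hax.inv_left.units_val
    have e4 : Commute a⁻¹.1 x⁻¹.1 := hax.inv_inv.units_val
    have e5 : Commute (a : E) a⁻¹.1 := ((Commute.refl a).inv_right).units_val
    have e6 : Commute (x : E) x⁻¹.1 := ((Commute.refl x).inv_right).units_val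
    rintro u hu v hv
    simp only [s, Set.mem_insert_iff, Set.mem_singleton_iff] at hu hv
    rcases hu with rfl | rfl | rfl | rfl <;> rcases hv with rfl | rfl | rfl | rfl <;>
      first
      | rfl
      | exact e1.eq | exact e1.eq.symm | exact e2.eq | exact e2.eq.symm
      | exact e3.eq | exact e3.eq.symm | exact e4.eq | exact e4.eq.symm
      | exact e5.eq | exact e5.eq.symm | exact e6.eq | exact e6.eq.symm
  haveI := Subring.isMulCommutative_closure hcomm
  let A := Subring.closure s
  letI : CommRing A := IsMulCommutative.instCommRing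
  let mk : ∀ u : Eˣ, (u : E) ∈ s → u⁻¹.1 ∈ s → Aˣ := fun u hu hu' =>
    ⟨⟨u, Subring.subset_closure hu⟩, ⟨u⁻¹.1, Subring.subset_closure hu'⟩,
      Subtype.ext u.mul_inv, Subtype.ext u.inv_mul⟩
  let a' := mk a (by simp [s]) (by simp [s])
  let x' := mk x (by simp [s]) (by simp [s])
  have h := eq_one_of_cycle (R := A) (Subtype.ext h2) a' x' (n := n)
    (Units.ext (Subtype.ext (by
      rw [Units.val_pow_eq_pow_val]; simpa [a', mk] using congrArg Units.val ha)))
    hn2 hn3 (Subtype.ext h1) (Subtype.ext (by simpa [a', x', mk] using h3))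
  exact Units.ext (congrArg (fun u : Aˣ => ((u : A) : E)) h)

variable {H : Type*} [Group H] [Finite H]

theorem centralized_of_module [Group.IsSolvable H] (σ : MulAut H) (h2 : ¬ 2 ∣ Nat.card H)
    (h3 : ¬ 3 ∣ Nat.card H) (φ : H →* MulAut V) (hinj : Function.Injective φ) (s : MulAut V)
    (hV : ∀ v : V, v * v = 1) (hs3 : ∀ v, s (s (s v)) = v) (hfpf : ∀ v, s v = v → v = 1)
    (hσ3 : ∀ h, σ (σ (σ h)) = h) (hcompat : ∀ h v, s (φ h v) = φ (σ h) (s v)) :
    ∀ h, σ h = h := by
  set S := toEnd s
  have hquad : ∀ v, s (s v) * s v * v = 1 := fun v => hfpf _ (by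
    rw [map_mul, map_mul, hs3]
    ac_rfl)
  have hS : S * S + S + 1 = 0 := toEnd_quad s hquad
  let ψ : H →* (AddMonoid.End (Additive V))ˣ := ((toEnd (V := V)).comp φ).toHomUnits
  have hψ : Function.Injective ψ := fun g g' h =>
    hinj (toEnd_injective (congrArg Units.val h))
  have hSψ : ∀ h, S * (ψ h : AddMonoid.End (Additive V)) = (ψ (σ h)).1 * S := fun h => by
    show toEnd s * toEnd (φ h) = toEnd (φ (σ h)) * toEnd s
    rw [← map_mul, ← map_mul]
    exact congrArg _ (MulEquiv.ext fun v => hcompat h v)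
  have hodd : Odd (Nat.card H) := Nat.not_even_iff_odd.1 fun he => h2 he.two_dvd
  have hodd' : ∀ h, Odd (orderOf (ψ h)) := fun h =>
    hodd.of_dvd_nat ((orderOf_map_dvd ψ h).trans (orderOf_dvd_natCard h))
  -- the twisted equation
  have htr : ∀ k, (ψ (σ (k * (σ k)⁻¹))).1 + (ψ (σ (k * (σ k)⁻¹)))⁻¹.1 =
      (ψ (k * (σ k)⁻¹)).1 + (ψ (k * (σ k)⁻¹))⁻¹.1 := by
    intro k
    refine trace_eq (end_two hV) S _ _ hS (hSψ _) ?_
    have hconj : ∀ v, φ (k * (σ k)⁻¹) (s v) = φ k (s (φ k⁻¹ v)) := fun v => by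
      rw [hcompat, map_inv σ, map_mul φ, MulAut.mul_apply]
    show toEnd (φ (k * (σ k)⁻¹)) * toEnd s * (toEnd (φ (k * (σ k)⁻¹)) * toEnd s) +
      toEnd (φ (k * (σ k)⁻¹)) * toEnd s + 1 = 0
    rw [← map_mul toEnd]
    refine toEnd_quad _ fun v => ?_
    have hk : ∀ w, φ k⁻¹ (φ k w) = w := fun w => by
      rw [← MulAut.mul_apply, ← map_mul, inv_mul_cancel, map_one]; rfl
    have hk' : ∀ w, φ k (φ k⁻¹ w) = w := fun w => by
      rw [← MulAut.mul_apply, ← map_mul, mul_inv_cancel, map_one]; rfl
    simp only [MulAut.mul_apply, hconj, hk]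
    have := congrArg (φ k) (hquad (φ k⁻¹ v))
    rw [map_mul, map_mul, map_one, hk'] at this
    exact this
  -- induction along the derived series
  have hchar : ∀ n, ∀ k ∈ derivedSeries H n, σ k ∈ derivedSeries H n := fun n k hk =>
    map_derivedSeries_le_derivedSeries σ.toMonoidHom n ⟨k, hk, rfl⟩
  have step : ∀ n, (∀ d ∈ derivedSeries H (n + 1), σ d = d) →
      ∀ k ∈ derivedSeries H n, σ k = k := by
    intro n hfix k hk
    have hform : ∀ l ∈ derivedSeries H n, ∀ d ∈ derivedSeries H (n + 1),
        Commute (l * (σ l)⁻¹) d := by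
      intro l hl d hd
      have hconj : l⁻¹ * d * l ∈ derivedSeries H (n + 1) := by
        have := (derivedSeries_normal H (n + 1)).conj_mem d hd l⁻¹
        rwa [inv_inv] at this
      have h' := hfix _ hconj
      rw [map_mul, map_mul, map_inv, hfix d hd] at h'
      show l * (σ l)⁻¹ * d = d * (l * (σ l)⁻¹)
      calc l * (σ l)⁻¹ * d = l * ((σ l)⁻¹ * d * σ l) * (σ l)⁻¹ := by group
        _ = d * (l * (σ l)⁻¹) := by rw [h']; group
    set a := k * (σ k)⁻¹ with ha
    set x := σ a with hx
    have hsa : σ k * (σ (σ k))⁻¹ = x := by rw [hx, ha, map_mul, map_inv]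
    have ham : a ∈ derivedSeries H n := mul_mem hk (inv_mem (hchar n k hk))
    set c := a * x * a⁻¹ * x⁻¹ with hc
    have hcm : c ∈ derivedSeries H (n + 1) := by
      rw [derivedSeries_succ]
      exact Subgroup.commutator_mem_commutator ham (hchar n a ham)
    have hca : Commute c a := (hform k hk c hcm).symm
    have hcx : Commute c x := by
      have := (hform (σ k) (hchar n k hk) c hcm).symm
      rwa [hsa] at this
    have hxt : (ψ x).1 + (ψ x)⁻¹.1 = (ψ a).1 + (ψ a)⁻¹.1 := htr k
    have hc1 : ψ c = 1 := commute_of_trace (end_two hV) (ψ a) (ψ x) (ψ c) (hodd' x) (hodd' c)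
      (by rw [← map_inv, ← map_mul, ← map_mul, ← map_mul]; congr 1; rw [hc]; group)
      (hca.map ψ) (hcx.map ψ) hxt
    have hax : Commute (ψ a) (ψ x) := by
      have : c = 1 := hψ (hc1.trans (map_one ψ).symm)
      have hax' : a * x = x * a := by
        rw [hc, mul_inv_eq_one, mul_inv_eq_iff_eq_mul] at this; exact this
      exact (show Commute a x from hax').map ψ
    have h3' : ((ψ a * ψ x)⁻¹).1 + (ψ a * ψ x).1 = (ψ a).1 + (ψ a)⁻¹.1 := by
      have hy := htr (σ k)
      rw [hsa] at hy
      have : σ x = (a * x)⁻¹ := by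
        rw [← hsa, map_mul, map_inv, ha, hσ3]; group
      rw [this, map_inv, inv_inv] at hy
      rw [← map_mul, hy]
      exact hxt
    have ha1 : ψ a = 1 := eq_one_of_cycle' (end_two hV) _ _ hax
      (n := Nat.card H) (by rw [← map_pow, pow_card_eq_one', map_one]) hodd
      ((Nat.prime_three.coprime_iff_not_dvd.2 h3).symm) hxt h3'
    have : a = 1 := hψ (ha1.trans (map_one ψ).symm)
    exact (mul_inv_eq_one.1 this).symm
  obtain ⟨N, hN⟩ := (Group.isSolvable_def H).1 inferInstance
  have hall : ∀ j, ∀ k ∈ derivedSeries H (N - j), σ k = k := by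
    intro j
    induction j with
    | zero => intro k hk; rw [Nat.sub_zero, hN, Subgroup.mem_bot] at hk; rw [hk, map_one]
    | succ j ih =>
      by_cases hj : j < N
      · refine step _ ?_
        rwa [show N - (j + 1) + 1 = N - j by omega]
      · rwa [show N - (j + 1) = N - j by omega]
  intro h
  exact hall N h (by rw [Nat.sub_self, derivedSeries_zero]; trivial)

end Cfsg.Agent.FpfSym3
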