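import Mathlib.RingTheory.Nilpotent.Basic
import Mathlib.RingTheory.Spectrum.Prime.Basic
import Mathlib.RingTheory.Ideal.Quotient.Basic
import Mathlib.RingTheory.Nilpotent.Lemmas
import Mathlib.Algebra.CharP.Two
import Mathlib.GroupTheory.OrderOfElement
import Mathlib.GroupTheory.Solvable
import Mathlib.Tactic.LinearCombination
import Mathlib.Tactic.NoncommRing

/-!
A group of order prime to `6` acting faithfully in characteristic two, normalized by an element `S`
with `S² + S + 1 = 0`, is centralized by `S`.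
-/

set_option autoImplicit false

namespace Cfsg.Agent.FpfSym3

variable {E : Type*} [Ring E]

theorem neg_eq_self_of_two (h2 : (1 : E) + 1 = 0) (e : E) : -e = e := by
  have : e + e = 0 := by rw [← one_mul e, ← add_mul, h2, zero_mul]
  exact neg_eq_of_add_eq_zero_left this

/-- The first identity: `T(a) = a + a⁻¹` is the same for `a` and its image. -/
theorem trace_eq (h2 : (1 : E) + 1 = 0) (S : E) (a x : Eˣ) (hS : S * S + S + 1 = 0)
    (hSa : S * a = x * S) (haS : (a : E) * S * (a * S) + a * S + 1 = 0) :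
    (x : E) + x⁻¹.1 = a + a⁻¹.1 := by
  have hneg := neg_eq_self_of_two h2
  have hSS : S * S = S + 1 := by
    rw [add_assoc, add_eq_zero_iff_eq_neg, hneg] at hS
    exact hS
  have h1 : ((x : E) + 1) * S = (x : E) + a⁻¹.1 := by
    have h : a⁻¹.1 * ((a : E) * S * (a * S) + a * S + 1) = 0 := by rw [haS, mul_zero]
    rw [mul_add, mul_add, ← mul_assoc, ← mul_assoc a⁻¹.1, Units.inv_mul,
      one_mul, mul_one, ← mul_assoc S, hSa, mul_assoc, hSS, mul_add, mul_one,
      add_eq_zero_iff_eq_neg, hneg] at h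
    rw [add_mul, one_mul, ← h,
      show (x : E) + (x * S + x + S) = x * S + S + (x + x) by abel]
    nth_rewrite 4 [← hneg (x : E)]
    rw [add_neg_cancel, add_zero]
  have h3 : S * ((a : E) + 1) = ((x : E) + 1) * S := by
    rw [mul_add, mul_one, hSa, add_mul, one_mul]
  have h4 : ((x : E) + 1) * ((x : E) + a⁻¹.1) = ((x : E) + a⁻¹.1) * ((a : E) + 1) := by
    rw [← h1, mul_assoc ((x : E) + 1) S, h3]
  rw [add_mul, mul_add, one_mul, add_mul, mul_add, mul_add, mul_one, mul_one, Units.inv_mul] at h4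
  have h5 : (x : E) * x + x * a⁻¹.1 = x * a + 1 := by
    rw [← sub_eq_zero] at h4 ⊢
    convert h4 using 1
    abel
  have h6 : (x : E) + a⁻¹.1 = a + x⁻¹.1 := by
    have := congrArg (fun e => x⁻¹.1 * e) h5
    simpa [mul_add, ← mul_assoc] using this
  rw [← sub_eq_zero] at h6 ⊢
  calc (x : E) + x⁻¹.1 - (a + a⁻¹.1)
      = ((x : E) + a⁻¹.1 - (a + x⁻¹.1)) + ((x⁻¹.1 - a⁻¹.1) + (x⁻¹.1 - a⁻¹.1)) := by abel
    _ = 0 := by
      rw [h6, zero_add]
      nth_rewrite 2 [← hneg (x⁻¹.1 - a⁻¹.1)]
      rw [add_neg_cancel]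

/-- In characteristic two a unit of odd order `≡ 1` modulo a square zero is `1`. -/
theorem eq_one_of_sq_zero (h2 : (1 : E) + 1 = 0) (c : Eˣ) (hc : Odd (orderOf c))
    (h : ((c : E) + 1) * ((c : E) + 1) = 0) : c = 1 := by
  rw [add_mul, mul_add, mul_one, one_mul] at h
  have h' : (c : E) * c = 1 := by
    have hneg := neg_eq_self_of_two h2
    rw [show (c : E) * c + c + (c + 1) = c * c + 1 + (c + c) by abel] at h
    nth_rewrite 4 [← hneg (c : E)] at h
    rw [add_neg_cancel, add_zero, add_eq_zero_iff_eq_neg, hneg] at h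
    exact h
  have hd : orderOf c ∣ 2 := orderOf_dvd_of_pow_eq_one (by ext; simpa [sq] using h')
  rcases (Nat.dvd_prime Nat.prime_two).1 hd with h1 | h1
  · exact orderOf_eq_one_iff.1 h1
  · exact absurd hc (by rw [h1]; decide)

/-- The commutator of `a` and `x` is trivial when it is central in the group they generate. -/
theorem commute_of_trace (h2 : (1 : E) + 1 = 0) (a x c : Eˣ) (hx : Odd (orderOf x))
    (hc : Odd (orderOf c)) (hcdef : a * x * a⁻¹ = c * x) (hca : Commute c a) (hcx : Commute c x)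
    (hT : (x : E) + x⁻¹.1 = a + a⁻¹.1) : c = 1 := by
  have hneg := neg_eq_self_of_two h2
  have h1 : (a : E) * ((x : E) + x⁻¹.1) = ((x : E) + x⁻¹.1) * a := by
    rw [hT, mul_add, add_mul, Units.mul_inv, Units.inv_mul]
  have hax : (a : E) * x = c * x * a := by
    have := congrArg Units.val (show a * x = c * x * a by rw [← hcdef, inv_mul_cancel_right])
    simpa using this
  have hax' : (a : E) * x⁻¹.1 = c⁻¹.1 * x⁻¹.1 * a := by
    have h' : a * x⁻¹ = c⁻¹ * x⁻¹ * a := by
      have h0 : (a * x * a⁻¹)⁻¹ = c⁻¹ * x⁻¹ := by rw [hcdef, mul_inv_rev, hcx.inv_inv.eq]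
      rw [← h0, mul_inv_rev, mul_inv_rev, inv_inv, ← mul_assoc, inv_mul_cancel_right]
    have := congrArg Units.val h'
    rwa [Units.val_mul, Units.val_mul, Units.val_mul] at this
  rw [mul_add, hax, hax', ← add_mul] at h1
  have h3 : (c : E) * x + c⁻¹.1 * x⁻¹.1 = x + x⁻¹.1 := (Units.mul_left_inj a).1 h1
  have h4 : ((c : E) + 1) * ((c : E) * x * x + 1) = 0 := by
    have h5 := congrArg (fun e => (c : E) * e * x) h3
    simp only [mul_add, add_mul, mul_assoc, Units.inv_mul, Units.mul_inv, mul_one,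
      Units.mul_inv_cancel_left] at h5
    rw [add_mul, mul_add, mul_one, one_mul]
    simp only [mul_assoc]
    rw [show (c : E) * ((c : E) * ((x : E) * x)) + c + ((c : E) * ((x : E) * x) + 1) =
      ((c : E) * ((c : E) * ((x : E) * x)) + 1) + ((c : E) * ((x : E) * x) + c) by abel, h5]
    nth_rewrite 1 [← hneg ((c : E) * ((x : E) * x) + c)]
    rw [neg_add_cancel]
  -- every power of `c x²` acts trivially under the factor `c + 1`
  have h6 : ((c : E) + 1) * (c * x * x : Eˣ) = ((c : E) + 1) := by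
    rw [mul_add, mul_one, add_eq_zero_iff_eq_neg, hneg] at h4
    simpa using h4
  have h7 : ∀ n : ℕ, ((c : E) + 1) * ((c * x * x) ^ n : Eˣ) = ((c : E) + 1) := by
    intro n
    induction n with
    | zero => simp
    | succ n ih => rw [pow_succ, Units.val_mul, ← mul_assoc, ih, h6]
  obtain ⟨m, hm⟩ := hx
  have h8 : (c * x * x) ^ (m + 1) = c ^ (m + 1) * x := by
    rw [mul_assoc, (hcx.mul_right hcx).mul_pow]
    congr 1
    rw [← sq, ← pow_mul, show 2 * (m + 1) = orderOf x + 1 by omega, pow_succ, pow_orderOf_eq_one,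
      one_mul]
  -- so `x` commutes with `a` under that factor
  have h9 : ((c : E) + 1) * x = ((c : E) + 1) * ((c ^ (m + 1))⁻¹ : Eˣ) := by
    have h9' := h7 (m + 1)
    rw [h8, Units.val_mul] at h9'
    have hk : Commute (((c ^ (m + 1))⁻¹ : Eˣ) : E) ((c : E) + 1) :=
      ((((Commute.refl c).pow_right _).inv_right).symm.units_val).add_right (Commute.one_right _)
    conv_rhs => rw [← hk.eq]
    calc ((c : E) + 1) * x
        = ((c ^ (m + 1))⁻¹ : Eˣ) * (((c : E) + 1) * ((c ^ (m + 1) : Eˣ) * x)) := by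
          rw [← mul_assoc (((c ^ (m + 1))⁻¹ : Eˣ) : E), hk.eq, mul_assoc ((c : E) + 1),
            ← mul_assoc _ ((c ^ (m + 1) : Eˣ) : E), Units.inv_mul, one_mul]
      _ = _ := by rw [h9']
  set k : Eˣ := (c ^ (m + 1))⁻¹ with hk
  have hka : Commute k a := (hca.pow_left _).inv_left
  have hq : Commute (a : E) ((c : E) + 1) := hca.symm.units_val.add_right (Commute.one_right _)
  have h10 : ((c : E) + 1) * ((c : E) * x) = ((c : E) + 1) * x := by
    have h11 : ((c : E) + 1) * ((a : E) * x) = ((c : E) + 1) * ((x : E) * a) := by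
      rw [← mul_assoc, ← hq.eq, mul_assoc, h9, ← mul_assoc, hq.eq, mul_assoc, ← hka.units_val.eq,
        ← mul_assoc, ← h9, mul_assoc]
    rw [hax, ← mul_assoc, ← mul_assoc _ (x : E) a] at h11
    exact (Units.mul_left_inj a).1 h11
  refine eq_one_of_sq_zero h2 c hc ?_
  rw [← mul_assoc] at h10
  have h12 : ((c : E) + 1) * (c : E) = (c : E) + 1 := (Units.mul_left_inj x).1 h10
  rw [mul_add, h12, mul_one]
  nth_rewrite 2 [← hneg ((c : E) + 1)]
  rw [add_neg_cancel]

/-- The abelian case. -/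
theorem eq_one_of_cycle {R : Type*} [CommRing R] (h2 : (1 : R) + 1 = 0) (a x : Rˣ) {n : ℕ}
    (ha : a ^ n = 1) (hn2 : Odd n) (hn3 : Nat.Coprime n 3) (h1 : (x : R) + x⁻¹.1 = a + a⁻¹.1)
    (h3 : ((a * x)⁻¹ : Rˣ).1 + (a * x : Rˣ).1 = a + a⁻¹.1) : a = 1 := by
  have hmem : (a : R) - 1 ∈ nilradical R := by
    rw [nilradical_eq_sInf, Submodule.mem_sInf]
    intro P hP
    haveI : Ideal.IsPrime P := hP
    set π := Ideal.Quotient.mk P
    rw [← Ideal.Quotient.eq_zero_iff_mem, map_sub, map_one, sub_eq_zero]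
    set A := π a with hA
    set X := π x with hX
    have hone : (1 : R ⧸ P) + 1 = 0 := by rw [← map_one π, ← map_add, h2, map_zero]
    have hA' : A * π a⁻¹.1 = 1 := by rw [hA, ← map_mul, Units.mul_inv, map_one]
    have hX' : X * π x⁻¹.1 = 1 := by rw [hX, ← map_mul, Units.mul_inv, map_one]
    have e1 : X + π x⁻¹.1 = A + π a⁻¹.1 := by
      rw [hA, hX, ← map_add, ← map_add, h1]
    have e2 : π x⁻¹.1 * π a⁻¹.1 + A * X = A + π a⁻¹.1 := by
      rw [hA, hX, ← map_mul, ← map_mul, ← map_add, ← map_add]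
      refine congrArg π ?_
      rw [← h3, mul_inv_rev, Units.val_mul, Units.val_mul]
    have hpow : A ^ n = 1 := by
      rw [hA, ← map_pow, ← Units.val_pow_eq_pow_val, ha, Units.val_one, map_one]
    set A' := π a⁻¹.1
    set X' := π x⁻¹.1
    have hsq : ∀ u : R ⧸ P, u * u = 1 → u = 1 := fun u hu => by
      have : (u + 1) * (u + 1) = 0 := by linear_combination hu + (u + 1) * hone
      have h0 : u + 1 = 0 := by simpa using mul_self_eq_zero.1 this
      linear_combination h0 - hone
    have f1 : (X - A) * (A * X - 1) = 0 := by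
      linear_combination (A * X) * e1 - A * hX' + X * hA'
    have f2 : (A * X - A) * (A * A * X - 1) = 0 := by
      linear_combination (A * A * X) * e2 - A * (A * A') * hX' + (A * X - A) * hA'
    have hcase : X = A ∨ A * X = 1 := by
      rcases mul_eq_zero.1 f1 with h | h
      · exact Or.inl (sub_eq_zero.1 h)
      · exact Or.inr (sub_eq_zero.1 h)
    rcases hcase with h | h
    · rcases mul_eq_zero.1 f2 with g | g
      · have hz : A * (A - 1) = 0 := by rw [h] at g; linear_combination g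
        rcases mul_eq_zero.1 hz with z | z
        · exact absurd hA' (by rw [z, zero_mul]; exact zero_ne_one)
        · exact sub_eq_zero.1 z
      · rw [h] at g
        have hA3 : A ^ 3 = 1 := by linear_combination g
        have := pow_gcd_eq_one.2 ⟨hpow, hA3⟩
        rwa [hn3.gcd_eq_one, pow_one] at this
    · rcases mul_eq_zero.1 f2 with g | g
      · linear_combination h - g
      · linear_combination g - A * h
  obtain ⟨k, hk⟩ := mem_nilradical.1 hmem
  have hk2 : ((a : R) - 1) ^ 2 ^ k = 0 := pow_eq_zero_of_le (Nat.lt_two_pow_self).le hk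
  have hfr : ∀ m : ℕ, ((a : R) - 1) ^ 2 ^ m = (a : R) ^ 2 ^ m - 1 := by
    intro m
    induction m with
    | zero => simp
    | succ m ih =>
      rw [pow_succ, pow_mul, ih, pow_mul]
      linear_combination (1 - (a : R) ^ 2 ^ m) * h2
  rw [hfr, sub_eq_zero] at hk2
  have := pow_gcd_eq_one.2 ⟨show a ^ 2 ^ k = 1 from Units.ext (by simpa using hk2), ha⟩
  rwa [(Nat.Coprime.pow_left k (Nat.coprime_two_left.2 hn2)).gcd_eq_one, pow_one] at this

end Cfsg.Agent.FpfSym3
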