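import Cfsg.Agent.Cores.Basic
import Mathlib.GroupTheory.FixedPointFree
import Mathlib.GroupTheory.Perm.Cycle.Type
import Mathlib.GroupTheory.QuotientGroup.Basic

/-!
Pairs of automorphisms generating an image of `S₃` with only the identity fixed by both.
-/

set_option autoImplicit false
set_option linter.style.haveILetI false
set_option linter.unusedSectionVars false

namespace Cfsg.Agent.FpfSym3

open scoped Pointwise

variable {G : Type*} [Group G]

/-- An action of `S₃` with no nontrivial fixed point, given by two generators. -/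
structure Pair (G : Type*) [Group G] where
  s : MulAut G
  t : MulAut G
  s3 : ∀ g, s (s (s g)) = g
  t2 : ∀ g, t (t g) = g
  ts : ∀ g, t (s g) = s (s (t g))
  fpf : ∀ g, s g = g → t g = g → g = 1

namespace Pair

variable (P : Pair G)

/-- The centralizer of the element of order three. -/
def cen : Subgroup G where
  carrier := {g | P.s g = g}
  one_mem' := map_one P.s
  mul_mem' {a b} (ha : P.s a = a) (hb : P.s b = b) := by
    show P.s (a * b) = a * b
    rw [map_mul, ha, hb]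
  inv_mem' {a} (ha : P.s a = a) := by
    show P.s a⁻¹ = a⁻¹
    rw [map_inv, ha]

theorem mem_cen {g : G} : g ∈ P.cen ↔ P.s g = g := Iff.rfl

theorem t_mem_cen {g : G} (hg : g ∈ P.cen) : P.t g ∈ P.cen := by
  rw [mem_cen] at hg ⊢
  conv_lhs => rw [← hg]
  rw [P.ts, P.s3]

/-- The involution on the centralizer. -/
def tCen : P.cen →* P.cen where
  toFun g := ⟨P.t (g : G), P.t_mem_cen g.2⟩
  map_one' := Subtype.ext (map_one P.t)
  map_mul' a b := Subtype.ext (map_mul P.t a.1 b.1)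

theorem tCen_fpf : MonoidHom.FixedPointFree P.tCen := fun g hg =>
  Subtype.ext (P.fpf g g.2 (congrArg Subtype.val hg))

theorem tCen_inv : Function.Involutive P.tCen := fun g => Subtype.ext (P.t2 g)

variable [Finite G]

theorem cen_comm {a b : G} (ha : a ∈ P.cen) (hb : b ∈ P.cen) : a * b = b * a :=
  congrArg Subtype.val (P.tCen_fpf.commute_all_of_involutive P.tCen_inv ⟨a, ha⟩ ⟨b, hb⟩).eq

theorem cen_odd : Odd (Nat.card P.cen) := P.tCen_fpf.odd_card_of_involutive P.tCen_inv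

/-- No nontrivial 2-element is fixed by `s`. -/
theorem eq_one_of_pow {g : G} (hg : P.s g = g) {k : ℕ} (h : g ^ 2 ^ k = 1) : g = 1 := by
  have h' : (⟨g, hg⟩ : P.cen) ^ 2 ^ k = 1 := Subtype.ext h
  have := orderOf_dvd_of_pow_eq_one h'
  have h1 : orderOf (⟨g, hg⟩ : P.cen) = 1 :=
    Nat.eq_one_of_dvd_coprimes ((Nat.coprime_two_left.2 P.cen_odd).pow_left k) this
      (orderOf_dvd_natCard _)
  exact congrArg Subtype.val (orderOf_eq_one_iff.1 h1)

theorem eq_one_of_mem_two {N : Subgroup G} (hN : IsPGroup 2 N) {g : G} (hg : g ∈ N)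
    (hs : P.s g = g) : g = 1 := by
  obtain ⟨k, hk⟩ := hN ⟨g, hg⟩
  exact P.eq_one_of_pow hs (k := k) (by simpa using congrArg Subtype.val hk)

/-- A fixed coset of an invariant subgroup contains a fixed element. -/
theorem lift_fixed (h3 : ¬ 3 ∣ Nat.card G) {N : Subgroup G} (hN : ∀ n ∈ N, P.s n ∈ N) {g : G}
    (hg : g⁻¹ * P.s g ∈ N) : ∃ c ∈ P.cen, g⁻¹ * c ∈ N := by
  classical
  haveI : Fact (Nat.Prime 3) := ⟨Nat.prime_three⟩
  have hmem : ∀ x : G, g⁻¹ * x ∈ N → g⁻¹ * P.s x ∈ N := fun x hx => by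
    have := mul_mem hg (hN _ hx)
    rwa [map_mul, map_inv, mul_assoc, mul_inv_cancel_left] at this
  let F := {x : G // g⁻¹ * x ∈ N}
  haveI : Fintype F := Fintype.ofFinite F
  let f : Equiv.Perm F :=
    { toFun := fun x => ⟨P.s x, hmem x x.2⟩
      invFun := fun x => ⟨P.s (P.s x), hmem _ (hmem x x.2)⟩
      left_inv := fun x => Subtype.ext (P.s3 x)
      right_inv := fun x => Subtype.ext (P.s3 x) }
  have hf : f ^ 3 ^ 1 = 1 := Equiv.ext fun x => Subtype.ext (P.s3 x)
  have hcard : ¬ 3 ∣ Fintype.card F := by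
    rw [← Nat.card_eq_fintype_card, Nat.card_congr (Equiv.subtypeEquiv (Equiv.mulLeft g⁻¹)
      (p := fun x => g⁻¹ * x ∈ N) (q := fun n => n ∈ N) fun _ => Iff.rfl)]
    exact fun h => h3 (h.trans N.card_subgroup_dvd_card)
  obtain ⟨x, hx⟩ := Equiv.Perm.exists_fixed_point_of_prime hcard hf
  exact ⟨x, congrArg Subtype.val hx, x.2⟩

/-- Restriction to an invariant subgroup. -/
@[simps]
def restrict (H : Subgroup G) (hs : ∀ h ∈ H, P.s h ∈ H) (ht : ∀ h ∈ H, P.t h ∈ H) : Pair H where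
  s :=
    { toFun := fun h => ⟨P.s (h : G), hs h h.2⟩
      invFun := fun h => ⟨P.s (P.s (h : G)), hs _ (hs h h.2)⟩
      left_inv := fun h => Subtype.ext (P.s3 h)
      right_inv := fun h => Subtype.ext (P.s3 h)
      map_mul' := fun a b => Subtype.ext (map_mul P.s a.1 b.1) }
  t :=
    { toFun := fun h => ⟨P.t (h : G), ht h h.2⟩
      invFun := fun h => ⟨P.t (h : G), ht h h.2⟩
      left_inv := fun h => Subtype.ext (P.t2 h)
      right_inv := fun h => Subtype.ext (P.t2 h)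
      map_mul' := fun a b => Subtype.ext (map_mul P.t a.1 b.1) }
  s3 h := Subtype.ext (P.s3 h)
  t2 h := Subtype.ext (P.t2 h)
  ts h := Subtype.ext (P.ts h)
  fpf h h1 h2 := Subtype.ext (P.fpf h (congrArg Subtype.val h1) (congrArg Subtype.val h2))

theorem map_eq_of_mem {N : Subgroup G} {f : MulAut G} (hN : ∀ n ∈ N, f n ∈ N) :
    N.map (f : G →* G) = N :=
  Subgroup.eq_of_le_of_card_ge (by rintro _ ⟨n, hn, rfl⟩; exact hN n hn)
    (Subgroup.card_map_of_injective f.injective).ge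

theorem quot_fpf (h3 : ¬ 3 ∣ Nat.card G) {N : Subgroup G} [N.Normal] (hs : ∀ n ∈ N, P.s n ∈ N)
    (ht : ∀ n ∈ N, P.t n ∈ N) {g : G} (h1 : g⁻¹ * P.s g ∈ N) (h2 : g⁻¹ * P.t g ∈ N) : g ∈ N := by
  classical
  obtain ⟨c, hc, hgc⟩ := P.lift_fixed h3 hs h1
  have hct : c⁻¹ * P.t c ∈ N := by
    have := mul_mem (inv_mem hgc) (mul_mem h2 (ht _ hgc))
    rwa [mul_inv_rev, inv_inv, map_mul, map_inv, mul_assoc g⁻¹, mul_inv_cancel_left,
      mul_assoc c⁻¹, mul_inv_cancel_left] at this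
  let F := {x : G // x ∈ P.cen ∧ c⁻¹ * x ∈ N}
  haveI : Fintype F := Fintype.ofFinite F
  have hmem : ∀ x : G, c⁻¹ * x ∈ N → c⁻¹ * P.t x ∈ N := fun x hx => by
    have := mul_mem hct (ht _ hx)
    rwa [map_mul, map_inv, mul_assoc, mul_inv_cancel_left] at this
  let f : Equiv.Perm F :=
    { toFun := fun x => ⟨P.t x, P.t_mem_cen x.2.1, hmem _ x.2.2⟩
      invFun := fun x => ⟨P.t x, P.t_mem_cen x.2.1, hmem _ x.2.2⟩
      left_inv := fun x => Subtype.ext (P.t2 x)
      right_inv := fun x => Subtype.ext (P.t2 x) }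
  have hf : f ^ 2 ^ 1 = 1 := Equiv.ext fun x => Subtype.ext (P.t2 x)
  have hcard : ¬ 2 ∣ Fintype.card F := by
    rw [← Nat.card_eq_fintype_card, Nat.card_congr (Equiv.subtypeEquiv (Equiv.mulLeft c⁻¹)
      (p := fun x => x ∈ P.cen ∧ c⁻¹ * x ∈ N) (q := fun n => n ∈ P.cen ⊓ N) fun x => by
        simp [Subgroup.mem_inf, P.cen.mul_mem_cancel_left (inv_mem hc)])]
    exact (P.cen_odd.of_dvd_nat (Subgroup.card_dvd_of_le inf_le_left)).not_two_dvd_nat
  obtain ⟨x, hx⟩ := Equiv.Perm.exists_fixed_point_of_prime hcard hf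
  have hx1 : (x : G) = 1 := P.fpf x x.2.1 (congrArg Subtype.val hx)
  have hcN := x.2.2
  rw [hx1, mul_one] at hcN
  have := mul_mem hgc hcN
  rw [mul_inv_cancel_right] at this
  exact inv_mem_iff.1 this

/-- The action on an invariant quotient. -/
noncomputable def quot (h3 : ¬ 3 ∣ Nat.card G) (N : Subgroup G) [N.Normal]
    (hs : ∀ n ∈ N, P.s n ∈ N) (ht : ∀ n ∈ N, P.t n ∈ N) : Pair (G ⧸ N) where
  s := QuotientGroup.congr N N P.s (map_eq_of_mem hs)
  t := QuotientGroup.congr N N P.t (map_eq_of_mem ht)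
  s3 q := QuotientGroup.induction_on q fun g => by simp [P.s3]
  t2 q := QuotientGroup.induction_on q fun g => by simp [P.t2]
  ts q := QuotientGroup.induction_on q fun g => by simp [P.ts]
  fpf q := QuotientGroup.induction_on q fun g h1 h2 => by
    simp only [QuotientGroup.congr_mk] at h1 h2
    exact (QuotientGroup.eq_one_iff g).2 (P.quot_fpf h3 hs ht
      (QuotientGroup.eq.1 h1.symm) (QuotientGroup.eq.1 h2.symm))

theorem quot_s_mk (h3 : ¬ 3 ∣ Nat.card G) (N : Subgroup G) [N.Normal]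
    (hs : ∀ n ∈ N, P.s n ∈ N) (ht : ∀ n ∈ N, P.t n ∈ N) (g : G) :
    (P.quot h3 N hs ht).s (QuotientGroup.mk g) = QuotientGroup.mk (P.s g) := by
  simp [quot]

theorem mem_quot_cen (h3 : ¬ 3 ∣ Nat.card G) (N : Subgroup G) [N.Normal]
    (hs : ∀ n ∈ N, P.s n ∈ N) (ht : ∀ n ∈ N, P.t n ∈ N) :
    (P.quot h3 N hs ht).cen ≤ P.cen.map (QuotientGroup.mk' N) := by
  intro q hq
  obtain ⟨g, rfl⟩ := QuotientGroup.mk_surjective q
  rw [mem_cen, quot_s_mk] at hq
  obtain ⟨c, hc, hgc⟩ := P.lift_fixed h3 hs (QuotientGroup.eq.1 hq.symm)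
  exact ⟨c, hc, (QuotientGroup.eq.2 hgc).symm⟩

/-- Both generators preserve a characteristic subgroup. -/
theorem char_mem {N : Subgroup G} [N.Characteristic] (f : MulAut G) : ∀ n ∈ N, f n ∈ N :=
  fun _ hn => (Subgroup.characteristic_iff_map_le.1 ‹_›) f (Subgroup.mem_map_of_mem _ hn)

/-- A Sylow 2-subgroup invariant under both automorphisms. -/
theorem exists_sylow (h3 : ¬ 3 ∣ Nat.card G) :
    ∃ S : Sylow 2 G, (∀ x ∈ S, P.s x ∈ S) ∧ ∀ x ∈ S, P.t x ∈ S := by
  classical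
  haveI : Fact (Nat.Prime 2) := ⟨Nat.prime_two⟩
  haveI : Fact (Nat.Prime 3) := ⟨Nat.prime_three⟩
  haveI : Fintype (Sylow 2 G) := Fintype.ofFinite _
  have hmem : ∀ (f : MulAut G) (S : Sylow 2 G), f • S = S → ∀ x ∈ S, f x ∈ S := by
    intro f S h x hx
    have : f • x ∈ f • (S : Subgroup G) := Subgroup.smul_mem_pointwise_smul x f _ hx
    rwa [← Sylow.pointwise_smul_def, h] at this
  have hn : ¬ 3 ∣ Fintype.card (Sylow 2 G) := fun h => by
    obtain ⟨S⟩ : Nonempty (Sylow 2 G) := inferInstance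
    rw [← Nat.card_eq_fintype_card] at h
    exact h3 (h.trans ((S.card_dvd_index).trans (S : Subgroup G).index_dvd_card))
  have hs3 : P.s ^ 3 = 1 := MulEquiv.ext fun g => P.s3 g
  have ht2 : P.t * P.t = 1 := MulEquiv.ext fun g => P.t2 g
  obtain ⟨S₀, hS₀⟩ := Equiv.Perm.exists_fixed_point_of_prime (p := 3) hn (n := 1)
    (σ := MulAction.toPermHom (MulAut G) (Sylow 2 G) P.s) (by rw [← map_pow, pow_one, hs3, map_one])
  change P.s • S₀ = S₀ at hS₀
  have hconj : ∀ (f : MulAut G) (g : G) (S : Sylow 2 G), f • g • S = f g • f • S := fun f g S => by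
    refine Sylow.ext ?_
    show f • (MulAut.conj g • (S : Subgroup G)) = MulAut.conj (f g) • f • (S : Subgroup G)
    rw [smul_smul, smul_smul]
    congr 1
    ext x
    simp
  have htrans : ∀ S : Sylow 2 G, P.s • S = S → S ∈ MulAction.orbit P.cen S₀ := by
    intro S hS
    obtain ⟨g, rfl⟩ := MulAction.exists_smul_eq G S₀ S
    rw [hconj, hS₀] at hS
    obtain ⟨c, hc, hgc⟩ := P.lift_fixed h3 (N := MulAction.stabilizer G S₀) (g := g)
      (fun n (hn : n • S₀ = S₀) => by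
        show P.s n • S₀ = S₀
        conv_lhs => arg 2; rw [← hS₀]
        rw [← hconj, hn, hS₀])
      (by rw [MulAction.mem_stabilizer_iff, mul_smul, hS, inv_smul_smul])
    refine ⟨⟨c, hc⟩, ?_⟩
    show c • S₀ = g • S₀
    have : (g⁻¹ * c) • S₀ = S₀ := hgc
    rwa [mul_smul, inv_smul_eq_iff] at this
  let O := MulAction.orbit P.cen S₀
  haveI : Fintype O := Fintype.ofFinite _
  have hfix : ∀ S ∈ O, P.s • S = S := by
    rintro _ ⟨c, rfl⟩
    show P.s • ((c : G) • S₀) = (c : G) • S₀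
    rw [hconj, hS₀, P.mem_cen.1 c.2]
  have htO : ∀ S ∈ O, P.t • S ∈ O := fun S hS => htrans _ (by
    rw [smul_smul, show P.s * P.t = P.t * (P.s * P.s) from MulEquiv.ext fun g => by
      simp [P.ts, P.s3], ← smul_smul, ← smul_smul, hfix S hS, hfix S hS])
  let f : Equiv.Perm O :=
    { toFun := fun S => ⟨P.t • S.1, htO _ S.2⟩
      invFun := fun S => ⟨P.t • S.1, htO _ S.2⟩
      left_inv := fun S => Subtype.ext (by show P.t • P.t • S.1 = S.1; rw [smul_smul, ht2, one_smul])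
      right_inv := fun S => Subtype.ext (by show P.t • P.t • S.1 = S.1; rw [smul_smul, ht2, one_smul]) }
  have hcard : ¬ 2 ∣ Fintype.card O := by
    haveI : Fintype P.cen := Fintype.ofFinite _
    haveI : Fintype (MulAction.stabilizer P.cen S₀) := Fintype.ofFinite _
    have hd : Fintype.card O ∣ Nat.card P.cen := by
      rw [Nat.card_eq_fintype_card, ← MulAction.card_orbit_mul_card_stabilizer_eq_card_group P.cen S₀]
      exact dvd_mul_right _ _
    exact (P.cen_odd.of_dvd_nat hd).not_two_dvd_nat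
  have hf : f ^ 2 ^ 1 = 1 := Equiv.ext fun S => Subtype.ext (by
    show P.t • P.t • S.1 = S.1
    rw [smul_smul, ht2, one_smul])
  obtain ⟨S, hS⟩ := Equiv.Perm.exists_fixed_point_of_prime hcard hf
  exact ⟨S, hmem _ _ (hfix _ S.2), hmem _ _ (congrArg Subtype.val hS)⟩

end Pair

end Cfsg.Agent.FpfSym3
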