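import Cfsg.Agent.FpfSym3.Setup
import Cfsg.Agent.FpfSym3.Module
import Cfsg.Agent.Cores.Fitting
import Cfsg.Agent.CF.CentreFactor
import Cfsg.Agent.CF.ClassTwoFactor
import Cfsg.Agent.CF.FocalOdd.Functors
import Mathlib.GroupTheory.SchurZassenhaus

/-!
The structure of a solvable group with a fixed-point-free `S₃` and order prime to three:
it is the product of `O_{2',2}` and the centralizer of the element of order three.
-/

set_option autoImplicit false
set_option linter.style.haveILetI false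
set_option linter.unusedSectionVars false
set_option maxHeartbeats 1000000

namespace Cfsg.Agent.FpfSym3

open Cfsg.Agent.CF (omZ)
open scoped IsMulCommutative

universe u

namespace Pair

variable {G : Type u} [Group G] [Finite G]

theorem omZ_mem (f : MulAut G) (N : Subgroup G) [N.Characteristic] :
    ∀ v ∈ omZ 2 N, f v ∈ omZ 2 N := by
  intro v hv
  have h := CF.omZ_map (p := 2) f.toMonoidHom (P := N)
    fun x _ hx => f.injective (hx.trans (map_one f).symm)
  rw [Subgroup.characteristic_iff_map_eq.1 ‹_› f] at h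
  rw [h]
  exact ⟨v, hv, rfl⟩

theorem pPrimePCore_le_pCore {X : Type*} [Group X] (h : Cfsg.pPrimeCore 2 X = ⊥) :
    Cfsg.pPrimePCore 2 X ≤ Cfsg.pCore 2 X := by
  refine Cores.le_pCore (Subgroup.normal_comap _) ?_
  refine Cores.pCore_isPGroup.comap_of_injective _ ?_
  rw [← MonoidHom.ker_eq_bot_iff, QuotientGroup.ker_mk', h]

theorem pCore_le_pPrimePCore {X : Type*} [Group X] :
    Cfsg.pCore 2 X ≤ Cfsg.pPrimePCore 2 X :=
  Subgroup.map_le_iff_le_comap.1
    (Cores.map_pCore_le_of_surjective _ (QuotientGroup.mk'_surjective _))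

theorem pPrimeCore_le_pPrimePCore {X : Type*} [Group X] :
    Cfsg.pPrimeCore 2 X ≤ Cfsg.pPrimePCore 2 X := fun x hx => by
  show QuotientGroup.mk' (Cfsg.pPrimeCore 2 X) x ∈ Cfsg.pCore 2 (X ⧸ Cfsg.pPrimeCore 2 X)
  rw [show QuotientGroup.mk' (Cfsg.pPrimeCore 2 X) x = 1 from
    (QuotientGroup.eq_one_iff x).2 hx]
  exact one_mem _

theorem structure_of_solvable (P : Pair G) (h3 : ¬ 3 ∣ Nat.card G) [Group.IsSolvable G] :
    Cfsg.pPrimePCore 2 G ⊔ P.cen = ⊤ := by
  suffices h : ∀ (n : ℕ) (X : Type u) [Group X] [Finite X] [Group.IsSolvable X] (P : Pair X),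
      Nat.card X = n → ¬ 3 ∣ Nat.card X → Cfsg.pPrimePCore 2 X ⊔ P.cen = ⊤ from
    h _ G P rfl h3
  intro n
  induction n using Nat.strong_induction_on with
  | _ n ih => ?_
  intro X _ _ _ P hn h3
  haveI : Fact (Nat.Prime 2) := ⟨Nat.prime_two⟩
  set O := Cfsg.pPrimeCore 2 X with hO
  have ihq : ∀ (N : Subgroup X) [N.Normal], N ≠ ⊥ → (hs : ∀ x ∈ N, P.s x ∈ N) →
      (ht : ∀ x ∈ N, P.t x ∈ N) →
      Cfsg.pPrimePCore 2 (X ⧸ N) ⊔ (P.quot h3 N hs ht).cen = ⊤ := by
    intro N _ hN hs ht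
    have hlt : Nat.card (X ⧸ N) < n := by
      rw [← hn, Subgroup.card_eq_card_quotient_mul_card_subgroup N]
      exact lt_mul_of_one_lt_right Nat.card_pos
        (Finite.one_lt_card_iff_nontrivial.2 ((Subgroup.nontrivial_iff_ne_bot N).2 hN))
    exact ih _ hlt _ _ rfl fun h => h3 (h.trans (Subgroup.card_quotient_dvd_card N))
  -- pulling back from a quotient by `N ≤ K`
  have pull : ∀ (N : Subgroup X) [N.Normal] (K : Subgroup X), N ≤ K →
      Subgroup.map (QuotientGroup.mk' N) (K ⊔ P.cen) = ⊤ → K ⊔ P.cen = ⊤ := by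
    intro N _ K hNK h
    have := congrArg (Subgroup.comap (QuotientGroup.mk' N)) h
    rwa [Subgroup.comap_map_eq, QuotientGroup.ker_mk', Subgroup.comap_top,
      sup_eq_left.2 (hNK.trans le_sup_left)] at this
  by_cases hOb : O = ⊥
  swap
  · refine pull O _ pPrimeCore_le_pPrimePCore (eq_top_iff.2 ?_)
    rw [← ihq O hOb (char_mem _) (char_mem _), Subgroup.map_sup]
    refine sup_le_sup ((pPrimePCore_le_pCore Cores.pPrimeCore_quotient_pPrimeCore_eq_bot).trans ?_)
      (P.mem_quot_cen h3 O _ _)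
    intro q hq
    obtain ⟨x, rfl⟩ := QuotientGroup.mk'_surjective O q
    exact ⟨x, hq, rfl⟩
  refine eq_top_iff.2 (le_trans ?_ (sup_le_sup_right pCore_le_pPrimePCore _))
  rw [top_le_iff]
  set T := Cfsg.pCore 2 X with hT
  rcases subsingleton_or_nontrivial X with hX | hX
  · exact Subsingleton.elim _ _
  have hTb : T ≠ ⊥ := by
    obtain ⟨p, hp, hne⟩ := Cores.exists_pCore_ne_bot (G := X)
    haveI := Fact.mk hp
    by_cases hp2 : p = 2
    · subst hp2; exact hne
    refine absurd (eq_bot_iff.2 ?_) hne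
    rw [← hOb]
    refine Cores.le_pPrimeCore inferInstance ?_
    obtain ⟨j, hj⟩ := (Cores.pCore_isPGroup (p := p) (G := X)).exists_card_eq
    rw [hj]
    exact ((Nat.coprime_primes hp Nat.prime_two).2 hp2).pow_left j
  set V := omZ 2 T with hV
  haveI : V.Normal := CF.omZ_normal T
  have hVb : V ≠ ⊥ := CF.FocalOdd.omZ_ne_bot Cores.pCore_isPGroup hTb
  have hVT : V ≤ T := CF.omZ_le 2 T
  have hVP : IsPGroup 2 V := Cores.pCore_isPGroup.to_le hVT
  haveI : IsMulCommutative V := ⟨⟨fun a b => Subtype.ext (Subgroup.mem_centralizer_iff.1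
    ((CF.omZ_le_inf 2 T) b.2).2 a (hVT a.2))⟩⟩
  have hs : ∀ x ∈ V, P.s x ∈ V := omZ_mem P.s T
  have ht : ∀ x ∈ V, P.t x ∈ V := omZ_mem P.t T
  have hQ := ihq V hVb hs ht
  set Y := X ⧸ V
  have h3Y : ¬ 3 ∣ Nat.card Y := fun h => h3 (h.trans (Subgroup.card_quotient_dvd_card V))
  set Q : Pair Y := P.quot h3 V hs ht with hQdef
  set R := Cfsg.pPrimeCore 2 Y with hR
  -- the action on `V`
  let ρ : Y →* MulAut V := QuotientGroup.lift V MulAut.conjNormal fun v hv => by
    refine MulEquiv.ext fun w => Subtype.ext ?_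
    show v * w * v⁻¹ = w
    have hvw : v * w = w * v :=
      congrArg Subtype.val ((IsMulCommutative.is_comm (M := V)).comm ⟨v, hv⟩ w)
    rw [hvw, mul_inv_cancel_right]
  have hρ : ∀ (g : X) (w : V), ((ρ (QuotientGroup.mk g) w : V) : X) = g * w * g⁻¹ :=
    fun g w => rfl
  let φ : R →* MulAut V := ρ.comp R.subtype
  have hinj : Function.Injective φ := by
    rw [← MonoidHom.ker_eq_bot_iff, eq_bot_iff]
    intro r hr
    set D := (R ⊓ ρ.ker).comap (QuotientGroup.mk' V) with hD
    have hVD : V ≤ D := fun v hv => by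
      show QuotientGroup.mk' V v ∈ R ⊓ ρ.ker
      rw [show QuotientGroup.mk' V v = 1 from (QuotientGroup.eq_one_iff v).2 hv]
      exact one_mem _
    have hcard : Nat.card D = Nat.card V * Nat.card ↥(R ⊓ ρ.ker) := Cores.card_comap_mk_eq V _
    have hidx : (V.subgroupOf D).index = Nat.card ↥(R ⊓ ρ.ker) := by
      have := (V.subgroupOf D).card_mul_index
      rw [Nat.card_congr (Subgroup.subgroupOfEquivOfLe hVD).toEquiv, hcard] at this
      exact Nat.eq_of_mul_eq_mul_left Nat.card_pos this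
    have hcop : (Nat.card (V.subgroupOf D)).Coprime (V.subgroupOf D).index := by
      rw [hidx, Nat.card_congr (Subgroup.subgroupOfEquivOfLe hVD).toEquiv]
      obtain ⟨j, hj⟩ := hVP.exists_card_eq
      rw [hj]
      exact (Nat.Coprime.coprime_dvd_left (Subgroup.card_dvd_of_le inf_le_left)
        (Cores.pPrimeCore_coprime (p := 2))).symm.pow_left j
    haveI : (V.subgroupOf D).Normal := inferInstance
    obtain ⟨H, hH⟩ := Subgroup.exists_right_complement'_of_coprime hcop
    have hcen : V.subgroupOf D ≤ Subgroup.center D := fun v hv =>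
      Subgroup.mem_center_iff.2 fun d => Subtype.ext (by
        have hd : QuotientGroup.mk (d : X) ∈ ρ.ker := d.2.2
        have := congrArg Subtype.val (DFunLike.congr_fun (MonoidHom.mem_ker.1 hd) ⟨(v : X), hv⟩)
        change (d : X) * v * (d : X)⁻¹ = v at this
        show (d : X) * v = v * d
        conv_rhs => rw [← this]
        rw [inv_mul_cancel_right])
    haveI hHn : H.Normal := by
      refine ⟨fun h hh d => ?_⟩
      have htop : d ∈ V.subgroupOf D ⊔ H := by rw [hH.sup_eq_top]; trivial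
      obtain ⟨v, hv, h', hh', rfl⟩ := Subgroup.mem_sup_of_normal_left.1 htop
      have hvc := Subgroup.mem_center_iff.1 (hcen hv) (h' * h * h'⁻¹)
      have : v * h' * h * (v * h')⁻¹ = h' * h * h'⁻¹ := by
        rw [mul_inv_rev, show v * h' * h * (h'⁻¹ * v⁻¹) = v * (h' * h * h'⁻¹) * v⁻¹ by group,
          ← hvc, mul_inv_cancel_right]
      rw [this]
      exact mul_mem (mul_mem hh' hh) (inv_mem hh')
    haveI : D.Normal := inferInstance
    have hHodd : (Nat.card H).Coprime 2 := by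
      rw [← hH.symm.index_eq_card, hidx]
      exact Nat.Coprime.coprime_dvd_left (Subgroup.card_dvd_of_le inf_le_left)
        (Cores.pPrimeCore_coprime (p := 2))
    have hHb : H = ⊥ := by
      have h1 := (Subgroup.map_mono (f := D.subtype) (Cores.le_pPrimeCore hHn hHodd)).trans
        Cores.map_subtype_pPrimeCore_le
      rw [← hO, hOb, le_bot_iff] at h1
      exact (Subgroup.map_eq_bot_iff_of_injective _ D.subtype_injective).1 h1
    have hVtop := hH.sup_eq_top
    rw [hHb, sup_bot_eq, Subgroup.subgroupOf_eq_top] at hVtop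
    obtain ⟨x, hx⟩ := QuotientGroup.mk_surjective (r : Y)
    have hxD : x ∈ D := by
      show QuotientGroup.mk' V x ∈ R ⊓ ρ.ker
      refine ⟨?_, ?_⟩
      · show (QuotientGroup.mk x : Y) ∈ R
        rw [hx]; exact r.2
      · show ρ (QuotientGroup.mk x) = 1
        rw [hx]; exact hr
    rw [Subgroup.mem_bot]
    exact Subtype.ext (hx.symm.trans ((QuotientGroup.eq_one_iff x).2 (hVtop hxD)))
  have hRcard2 : ¬ 2 ∣ Nat.card R := Cores.not_dvd_card_pPrimeCore
  have hRfix : ∀ r ∈ R, Q.s r = r := by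
    have hfix := centralized_of_module ((Q.restrict R (char_mem _) (char_mem _)).s) hRcard2
      (fun h => h3Y (h.trans R.card_subgroup_dvd_card)) φ hinj (P.restrict V hs ht).s
      (fun v => Subtype.ext (by rw [Subgroup.coe_mul, ← sq]; exact CF.pow_eq_one_of_mem_omZ _ v.2))
      (P.restrict V hs ht).s3
      (fun v hv => Subtype.ext (P.eq_one_of_mem_two hVP v.2 (congrArg Subtype.val hv)))
      (Q.restrict R (char_mem _) (char_mem _)).s3 (fun r v => by
        obtain ⟨x, hx⟩ := QuotientGroup.mk_surjective (r : Y)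
        refine Subtype.ext ?_
        show P.s ((ρ (r : Y) v : V) : X) = ((ρ (Q.s (r : Y)) ((P.restrict V hs ht).s v) : V) : X)
        rw [← hx, hQdef, quot_s_mk, hρ, hρ, map_mul, map_mul, map_inv]
        rfl)
    exact fun r hr => congrArg Subtype.val (hfix ⟨r, hr⟩)
  -- the top
  set K := Cfsg.pPrimePCore 2 Y with hK
  set C := Subgroup.centralizer (R : Set Y) with hC
  haveI : C.Normal := by rw [hC]; infer_instance
  haveI : K.Normal := by rw [hK]; exact Subgroup.normal_comap _
  have hK2 : ∀ x ∈ K, ∃ k, x ^ 2 ^ k ∈ R := by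
    intro x hx
    obtain ⟨k, hk⟩ := (Cores.pCore_isPGroup (p := 2) (G := Y ⧸ R))
      ⟨QuotientGroup.mk' R x, hx⟩
    exact ⟨k, (QuotientGroup.eq_one_iff _).1 (by simpa using congrArg Subtype.val hk)⟩
  have hKC : K ≤ C ⊔ R := by
    intro x hx
    have hmemC : ∀ c ∈ C, Q.s c ∈ C := fun c hc => Subgroup.mem_centralizer_iff.2 fun r hr => by
      have := congrArg Q.s (Subgroup.mem_centralizer_iff.1 hc r hr)
      rwa [map_mul, map_mul, hRfix r hr] at this
    have hD : ∀ d ∈ C ⊔ R, Q.s d ∈ C ⊔ R := by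
      intro d hd
      obtain ⟨c, hc, r, hr, rfl⟩ := Subgroup.mem_sup_of_normal_left.1 hd
      rw [map_mul, hRfix r hr]
      exact Subgroup.mul_mem_sup (hmemC c hc) hr
    have hx' : x⁻¹ * Q.s x ∈ C ⊔ R := by
      refine Subgroup.mem_sup_left (Subgroup.mem_centralizer_iff.2 fun r hr => ?_)
      have hcj : x * r * x⁻¹ ∈ R := (Cores.pPrimeCore_normal_inst (p := 2) Y).conj_mem r hr x
      have h := hRfix _ hcj
      rw [map_mul, map_mul, map_inv, hRfix r hr] at h
      calc r * (x⁻¹ * Q.s x) = x⁻¹ * (x * r * x⁻¹) * Q.s x := by group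
        _ = x⁻¹ * Q.s x * r := by rw [← h]; group
    obtain ⟨c, hc, hxc⟩ := Q.lift_fixed h3Y hD hx'
    obtain ⟨k, hk⟩ := hK2 x hx
    set π := QuotientGroup.mk' (C ⊔ R)
    have hπ : π x = π c := (QuotientGroup.eq (s := C ⊔ R)).2 hxc
    have hp : π x ^ 2 ^ k = 1 := by
      rw [← map_pow]
      exact (QuotientGroup.eq_one_iff _).2 (Subgroup.mem_sup_right hk)
    have ho : orderOf (π x) ∣ Nat.card Q.cen := by
      rw [hπ]
      refine (orderOf_map_dvd π c).trans ?_
      exact (Subgroup.orderOf_coe ⟨c, hc⟩).symm ▸ orderOf_dvd_natCard _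
    have h1 : orderOf (π x) = 1 := Nat.eq_one_of_dvd_coprimes
      ((Nat.coprime_two_left.2 Q.cen_odd).pow_left k) (orderOf_dvd_of_pow_eq_one hp) ho
    exact (QuotientGroup.eq_one_iff x).1 (orderOf_eq_one_iff.1 h1)
  have hnil : Group.IsNilpotent ↥(C ⊓ K) := by
    let f : ↥(C ⊓ K) →* ↥(Cfsg.pCore 2 (Y ⧸ R)) :=
      ((QuotientGroup.mk' R).comp (C ⊓ K).subtype).codRestrict _ fun x => x.2.2
    haveI := (Cores.pCore_isPGroup (p := 2) (G := Y ⧸ R)).isNilpotent
    refine Subgroup.isNilpotent_of_ker_le_center f (fun x hx => ?_)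
    have hxR : (x : Y) ∈ R := (QuotientGroup.eq_one_iff _).1 (congrArg Subtype.val hx)
    exact Subgroup.mem_center_iff.2 fun y => Subtype.ext
      (Subgroup.mem_centralizer_iff.1 y.2.1 x hxR).symm
  have hFit : C ⊓ K ≤ Cfsg.pCore 2 Y ⊔ R := by
    refine (Cores.le_iSup_pCore_of_nilpotent hnil).trans (iSup_le fun q => ?_)
    by_cases hq : (q : ℕ) = 2
    · rw [hq]; exact le_sup_left
    haveI := Fact.mk q.2
    refine le_sup_of_le_right (Cores.le_pPrimeCore inferInstance ?_)
    obtain ⟨j, hj⟩ := (Cores.pCore_isPGroup (p := (q : ℕ)) (G := Y)).exists_card_eq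
    rw [hj]
    exact ((Nat.coprime_primes q.2 Nat.prime_two).2 hq).pow_left j
  have hKle : K ≤ Cfsg.pCore 2 Y ⊔ Q.cen := by
    intro x hx
    obtain ⟨c, hc, r, hr, rfl⟩ := Subgroup.mem_sup_of_normal_left.1 (hKC hx)
    have hcK : c ∈ K := by
      have := mul_mem hx (inv_mem (pPrimeCore_le_pPrimePCore hr))
      rwa [mul_inv_cancel_right] at this
    have hR' : R ≤ Q.cen := fun r hr => hRfix r hr
    exact mul_mem ((hFit.trans (sup_le_sup_left hR' _)) ⟨hc, hcK⟩) (Subgroup.mem_sup_right (hR' hr))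
  refine pull V T hVT (eq_top_iff.2 ?_)
  rw [← hQ, Subgroup.map_sup]
  refine sup_le (hKle.trans (sup_le ?_ ?_)) ((P.mem_quot_cen h3 V hs ht).trans le_sup_right)
  · exact (Cores.pCore_quotient hVP).le.trans le_sup_left
  · exact (P.mem_quot_cen h3 V hs ht).trans le_sup_right

end Pair

end Cfsg.Agent.FpfSym3
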